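import Cfsg.Agent.C3X.CoM

/-! Project U4T: the centralizer of an extraspecial group of order 243 acting on the Leech lattice. -/

set_option autoImplicit false

namespace Cfsg.Agent.U4T.CoC

open Subgroup H14 H15 H97 H26.CoInv C3X

/-- the vector fixed by `mj1`, `mj2` -/
def vA : ℕ := nat_lit 0x8208207a08a27a282089e81e82281e82281e
/-- its image under `mj0` -/
def vB : ℕ := nat_lit 0x85f75f85f7df8df85f8637e186186185f7e1
/-- its image under the square of `mj0` -/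
def vC : ℕ := nat_lit 0x7e18e18617df7df7e175f8617dd7e17df861
/-- a dual vector -/
def vL : ℕ := nat_lit 0x82082081e7a079e82082082082289e82081e
/-- a dual vector -/
def vM : ℕ := nat_lit 0x8a28208a08208208a28a0820822820820822
/-- pairs for `mj1` -/
def pA : List (ℕ × ℕ) :=
  [(nat_lit 0x8618617e18df85f7e17e185f7e18e17df75f, nat_lit 0x8a07a08a08228228207a082282079e8228a2),
    (nat_lit 0x85f7df7e37e37e185f7df86185f86385f7df, nat_lit 0x8208a089e8a081e82082071e820820822822),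
    (nat_lit 0x8207a07a082281e82282081e79e81e89e822, nat_lit 0x85f85f85f75f7e18617df7e17e38617617df),
    (nat_lit 0x86385f85f7e17e185f7e37df7df7df85f7dd, nat_lit 0x7df8618617e18617e185f85f8e18df7df863),
    (nat_lit 0x85f7e185f85f8618637df7df85f86185f8dd, nat_lit 0x8208a27a07a289e81e82082282081e8227a0),
    (nat_lit 0x8208a079e8a082292082082282082081e822, nat_lit 0x7e17e185f7e385f76186185f7e17e37e185f),
    (nat_lit 0x8a07a08a08228228207a082282079e8228a2, nat_lit 0x75f85f7df75f7df85f8df7df85f7e185f85f),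
    (nat_lit 0x7e17e17df7dd8617e18618e17e17dd7df85f, nat_lit 0x85f7df7e37e37e185f7df86185f86385f7df),
    (nat_lit 0x85f85f85f75f7e18617df7e17e38617617df, nat_lit 0x7e18618618df8617dd8618618df7e186185f),
    (nat_lit 0x85f7df8637dd7df7df7df7df85f85d8617df, nat_lit 0x8208a079e8a082292082082282082081e822)]
/-- pairs for `mj2` -/
def pB : List (ℕ × ℕ) :=
  [(nat_lit 0x79e82282282082089e7a281e7a28208208a0, nat_lit 0x8a081e81e8208a082081e89e89e7a07a07a0),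
    (nat_lit 0x7a081e81e8208a279e79e8207a08a08a0820, nat_lit 0x81e8228228208228228a27a081e7a07a07a0),
    (nat_lit 0x86385f85f7e17e185f7e37df7df7df85f7dd, nat_lit 0x81e7a07a089e81e82081e8227a07a2822820),
    (nat_lit 0x85f7e185f85f8618637df7df85f86185f8dd, nat_lit 0x7e17dd86185f7617df86185f7e17e17df7e3),
    (nat_lit 0x8a081e81e8208a082081e89e89e7a07a07a0, nat_lit 0x8228208208207a07a28a07a48208a08a0820),
    (nat_lit 0x8a282082082079c8a08208a08a28208208a0, nat_lit 0x7a081e81e8208a279e79e8207a08a08a0820)]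
/-- vectors fixed by `mj0` -/
def pF : List (ℕ × ℕ) :=
  [(nat_lit 0x7a27a08208208208a082082081e8a07a2820, nat_lit 0x820820820820820820820820820820820820),
    (nat_lit 0x82281e7a28208a08208207a08208207a08a0, nat_lit 0x820820820820820820820820820820820820),
    (nat_lit 0x89e89e7a08208207a08228208208208208a0, nat_lit 0x820820820820820820820820820820820820),
    (nat_lit 0x7a07a281e8207a08207a08208a08208207a0, nat_lit 0x820820820820820820820820820820820820),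
    (nat_lit 0x89e82281e8207a079e82082082082081e820, nat_lit 0x820820820820820820820820820820820820),
    (nat_lit 0x86185f7e17df86186186185f7df861863861, nat_lit 0x820820820820820820820820820820820820)]
/-- coefficients -/
def cA : List (List ℤ) :=
  [[-1, -1, 2, -2, -3, 1, -2, 1, 4, 2, 1, 4, 1, 0, -1, 2, 6, -3, 9, 6, 3, -3, -18, 9],
    [-3, -1, 0, -2, 3, -1, 0, 1, 0, -2, 1, 2, 1, 0, -1, 4, 0, 3, -3, -6, 3, 3, 0, -9],
    [-1, -3, -2, 0, 1, -1, 4, -3, -4, -2, -1, -4, -3, -2, 1, -2, -6, 3, -9, 0, -3, 15, 18, -9],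
    [-1, 1, 2, 2, -1, 1, -2, -1, -2, 2, 1, 2, -1, 2, -1, -2, -6, -3, 3, 6, -3, 3, 0, 9],
    [1, 1, -2, 2, -1, -3, -4, -1, 2, 0, 1, 4, -1, 2, -1, 2, 6, -3, 9, 6, 3, -3, -18, 9],
    [3, 1, 0, -2, -1, 1, 0, -1, 0, 2, 1, 2, 1, 2, -1, -2, 12, -3, 9, 0, 3, -3, 0, 9],
    [1, 1, -2, 0, 1, -1, 2, -1, -4, -2, 3, -2, -3, -2, 3, -4, -12, 9, -3, 6, -3, 3, 18, 9],
    [-1, 1, -2, -2, -1, 1, -2, -1, -4, 2, -1, 0, 1, 2, 1, 0, 0, 3, 9, 12, -3, -3, 0, 9],
    [-1, 3, -2, 2, -5, 1, -2, 3, 2, 2, -1, 4, -1, 4, -5, 2, 12, -9, 15, 0, -3, -15, -18, 9],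
    [1, 3, 0, -2, 1, -1, 2, 3, 0, -2, -1, 2, 1, -2, 1, 4, 0, -9, -3, -6, -3, 3, 0, -9],
    [1, 3, 0, 4, -5, -1, -4, 3, 0, 4, 5, 2, 1, 4, 1, -2, 18, -9, 33, 12, -3, -15, -18, 27],
    [-1, 1, 0, 0, 1, -1, -2, -1, -6, -2, -1, -6, -3, -2, 1, -6, 0, 3, -3, -6, 3, 3, 18, 9],
    [1, -1, 2, -2, 3, -1, 2, 1, 4, -2, -3, -2, 1, 0, -3, 2, -6, -3, -3, 0, -9, 3, 0, -9],
    [-1, 1, 0, 2, -1, 3, -2, -1, 0, 0, 3, 0, -1, 2, 3, 0, 6, -3, 3, 0, -3, -3, 0, 9],
    [-1, 1, -2, -2, 5, 1, 4, -1, -4, -4, -1, -6, 1, -4, 1, -6, -12, 9, -15, 0, 3, 15, 18, -9],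
    [1, 3, 0, 2, -7, -1, -4, 3, 0, 4, 3, 4, -1, 8, 3, -4, 12, -3, 21, 6, -3, -15, -18, 27],
    [-1, -1, 2, -2, 1, -3, 4, -5, -2, -6, -1, -4, 1, -2, 1, -2, -6, 3, -9, -6, -3, 3, 18, -9],
    [3, -3, 0, 0, 5, 1, 6, -3, -6, -4, -1, -4, -3, -4, 1, -2, -6, 3, -9, -6, -3, 3, 18, -9],
    [1, 1, 0, -2, 1, 1, 2, -1, 0, 2, 1, -2, 1, -2, -1, 2, -6, 3, -9, -6, -3, 3, 0, -9],
    [-1, -1, -2, 0, -1, -1, -2, 1, 2, 4, 1, 4, 3, 2, -1, 2, 12, -15, 9, -6, -3, -15, -18, 9],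
    [1, -1, 0, -2, -1, -1, 2, 1, 0, -2, 1, -2, 1, 2, -1, 2, -6, 3, -15, 0, 9, 9, 0, -9],
    [1, -5, -2, -4, 1, 1, 2, -1, 2, -4, -3, 0, 5, -2, -3, 6, -12, -3, -15, -12, -3, 9, 0, -27],
    [1, -1, 0, 0, 1, -1, 2, 1, 0, -2, -3, 2, 3, -2, -3, 4, -6, 9, -15, 0, 3, 9, 0, -9],
    [1, 1, 0, 2, -1, 1, 2, -1, 0, 2, -1, 0, -1, 2, 1, 0, 0, 3, 3, 0, 9, 3, 0, 9]]
/-- the orbit of `vA` -/
def ch : List (Fin 3 × ℕ × ℕ) :=
  [(1, nat_lit 0x8208207a08a27a282089e81e82281e82281e, nat_lit 0x8618617e18df85f7e17e185f7e18e17df75f),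
    (1, nat_lit 0x8618617e18df85f7e17e185f7e18e17df75f, nat_lit 0x85f7df7e37e37e185f7df86185f86385f7df),
    (2, nat_lit 0x8208207a08a27a282089e81e82281e82281e, nat_lit 0x79e82282282082089e7a281e7a28208208a0),
    (2, nat_lit 0x79e82282282082089e7a281e7a28208208a0, nat_lit 0x7a081e81e8208a279e79e8207a08a08a0820),
    (2, nat_lit 0x8618617e18df85f7e17e185f7e18e17df75f, nat_lit 0x8207a07a082281e82282081e79e81e89e822),
    (2, nat_lit 0x8207a07a082281e82282081e79e81e89e822, nat_lit 0x86385f85f7e17e185f7e37df7df7df85f7dd),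
    (2, nat_lit 0x85f7df7e37e37e185f7df86185f86385f7df, nat_lit 0x85f7e185f85f8618637df7df85f86185f8dd),
    (2, nat_lit 0x85f7e185f85f8618637df7df85f86185f8dd, nat_lit 0x8208a079e8a082292082082282082081e822),
    (0, nat_lit 0x8208207a08a27a282089e81e82281e82281e, nat_lit 0x85f75f85f7df8df85f8637e186186185f7e1),
    (0, nat_lit 0x8618617e18df85f7e17e185f7e18e17df75f, nat_lit 0x8a07a08a08228228207a082282079e8228a2),
    (0, nat_lit 0x85f7df7e37e37e185f7df86185f86385f7df, nat_lit 0x7e17e17df7dd8617e18618e17e17dd7df85f),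
    (0, nat_lit 0x79e82282282082089e7a281e7a28208208a0, nat_lit 0x8a081e81e8208a082081e89e89e7a07a07a0),
    (0, nat_lit 0x7a081e81e8208a279e79e8207a08a08a0820, nat_lit 0x8a282082082079c8a08208a08a28208208a0),
    (0, nat_lit 0x8207a07a082281e82282081e79e81e89e822, nat_lit 0x85f85f85f75f7e18617df7e17e38617617df),
    (0, nat_lit 0x86385f85f7e17e185f7e37df7df7df85f7dd, nat_lit 0x7df8618617e18617e185f85f8e18df7df863),
    (0, nat_lit 0x85f7e185f85f8618637df7df85f86185f8dd, nat_lit 0x7e17dd86185f7617df86185f7e17e17df7e3),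
    (0, nat_lit 0x8208a079e8a082292082082282082081e822, nat_lit 0x85f7df8637dd7df7df7df7df85f85d8617df)]
/-- glue vectors, their images and coefficients -/
def gl : List ((ℕ × ℕ × ℕ) × List ℤ) :=
  [((nat_lit 0x82082081e7a079e82082082082289e82081e, nat_lit 0x81e8228a08a08208208228208a08227a0820,
      nat_lit 0x7df7df7df8617e17df7df8617dd7df85f7e1), [1, -1, 0, -1, 2, 2, 1, -1, 0, 0, -1, 1, -1, 2, 2, 0, -1, 1]),
    ((nat_lit 0x86185f85f8617e185f8df7df861861861861, nat_lit 0x85f7e17e37df85f85f8618617df86185f7e1,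
      nat_lit 0x86186185f7df8617e17df85f75f7df7e185f), [2, -1, -2, -1, 1, -1, 1, 1, 0, 0, 0, -2, 0, 1, 0, 1, 1, -1]),
    ((nat_lit 0x7a282081e82081e7a08a08208208207a07a0, nat_lit 0x8208228208a28208a07a07a28208a0820820,
      nat_lit 0x7df75f8617df7e185f7df85f85f7df7df85f), [0, -1, -1, -1, 0, 0, 0, -1, -2, 0, -2, 1, 1, 0, 0, 0, 1, -1]),
    ((nat_lit 0x7e185f85f85f7e17df75f85f85f85f7e1861, nat_lit 0x8207a07a082279e8208a08208a0820822820,
      nat_lit 0x7df7e17df7df8618617e37e17df8617df7df), [-2, 1, -1, 1, 2, -1, 1, 1, 1, -2, 1, 0, 1, 0, 0, 1, 1, 1]),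
    ((nat_lit 0x8208a08207a082082081e82279e81e82081e, nat_lit 0x8208208a08a08208208a081e8228a082089e,
      nat_lit 0x85f7df86186185f85f8618617df7e17df7e3), [-2, -1, 1, -1, 0, 1, 0, -2, 1, -2, 0, 1, 0, -1, 1, -1, -2, 1]),
    ((nat_lit 0x85f7e18637e17e17df7df7e186185f85f861, nat_lit 0x7df7e17df7df85f7df85f85f7e17617df85f,
      nat_lit 0x8a28a081e8a08208208207a082082081e7a0), [0, 1, 1, -1, 0, 0, 1, 0, 1, 0, 2, -1, -2, 0, 0, 2, 0, 2])]
/-- coefficients -/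
def cC : List (List ℤ) :=
  [[-3, 0, 0, 0, 0, 2, -1, -2, 1, -2, 1, 1, 0, -1, 1, 0, -1, 1, 0, 3, 0, 0, -3, 0],
    [7, -2, -4, -2, -4, 2, -1, 0, -5, 10, -7, -1, -2, 3, 1, -2, 1, -9, -6, -3, -6, 12, 9, 6],
    [-1, 0, 2, 0, 0, 0, -1, -2, -1, -2, 3, 1, -2, -1, 1, 0, -3, 3, 0, 3, 0, 0, -3, -6],
    [-7, 0, 2, 0, 6, -2, 1, 0, 3, -10, 5, 1, 0, -1, -3, 2, -1, 7, 6, 3, 0, -12, -9, -6],
    [-3, 0, 2, 0, 0, 0, -1, 0, -1, -2, -1, 1, 0, -1, 1, -2, -1, -1, 0, 3, 0, 0, -3, 0],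
    [1, 2, 2, 0, -2, 2, -1, 0, -1, 4, -1, 1, -2, -1, 1, 0, -1, -1, 0, 3, 0, 6, 3, 0],
    [1, 0, -2, 0, 4, -2, 1, 0, 1, -2, 1, -1, 0, 3, 1, 2, 1, 1, 0, -3, 0, -6, -3, 0],
    [1, -2, 0, -2, 0, -2, 1, 0, 1, 0, -1, -1, 0, 1, -1, 2, -1, 1, 0, -3, 0, 0, -3, 0],
    [1, 0, 0, -2, 0, -2, -1, 0, 1, 2, 1, -1, -2, 1, -1, 0, 1, -1, 0, -3, 0, 0, 3, 0],
    [-5, 2, 4, 2, 2, -2, -1, 0, 1, -6, 5, 3, 2, -1, -3, 2, 1, 3, 6, 3, 0, -6, -3, -6],
    [3, 0, -2, -2, -4, 0, 1, -2, -3, 6, -3, -1, -2, -1, -1, 0, 1, -5, 0, -3, -6, 6, 3, 0],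
    [1, 0, 0, 0, -2, 0, -1, 0, -1, 2, -1, 1, 0, -1, -1, 0, 1, -1, 0, 3, 0, 0, 3, 0],
    [-1, 0, 0, -2, 2, 0, 1, 2, 1, -4, 3, -1, -2, 1, 1, 4, 1, 3, 0, -3, 0, -6, -3, -6],
    [-3, 0, 4, 4, 2, 0, 1, 2, 5, -4, 5, 1, 0, 1, 1, 2, -1, 7, 0, 3, 6, -6, -3, -6],
    [-1, 0, 2, 0, 0, 0, 1, 0, 1, -2, 1, 3, 0, -3, 1, 0, -1, 1, 0, 3, 0, 0, -3, 0],
    [3, 0, -2, 0, 2, 0, 1, 0, -1, 4, -1, -1, 0, 3, 1, 2, -1, -1, -6, -3, 0, 0, 3, 0],
    [3, 0, 0, 0, 0, 0, 1, 0, -1, 2, 1, -3, 0, 1, -1, 2, 1, -3, 0, -3, 0, 0, 3, 0],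
    [3, 2, -2, 0, 0, -2, -1, 2, 1, 2, 1, -3, 0, 1, -3, 0, 3, -1, 0, -3, 0, 0, 3, 0],
    [3, 0, 0, 0, 0, 0, 1, 0, -1, 2, -1, -1, -2, 3, 1, 2, 1, 1, -6, -3, 0, 0, 3, 0],
    [-7, 2, 2, 4, 4, -4, 1, 4, 3, -8, 9, -1, 2, -1, -3, 4, 3, 7, 6, 3, 6, -12, -3, -6],
    [-9, 2, 4, 4, 0, 0, -1, 0, 3, -10, 5, 5, 2, -5, -1, -2, -5, 5, 6, 9, 6, -6, -9, 0],
    [1, 0, -4, -2, 0, -2, 1, -2, -1, 0, -3, -3, 0, 1, -1, 2, 1, -3, 0, -3, -6, 0, 3, 0],
    [-1, 0, 2, 0, 2, 2, 3, 0, 1, -2, 1, 3, -2, 3, 3, 0, -3, 3, -6, 3, 6, 0, -3, 0],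
    [1, 2, -2, -2, -4, 2, -1, -2, -3, 4, -3, 1, 2, -1, 1, -4, -1, -5, 0, 3, -6, 6, 3, 6]]

/-- the zero vector -/
def z0 : ℕ := nat_lit 0x820820820820820820820820820820820820

theorem vec_z0 : vec z0 = 0 := by decide +kernel

/-- the vector of a pair -/
def dv (p : ℕ × ℕ) : Vec := vec p.1 - vec p.2

theorem dv_z0 (X : ℕ) : dv (X, z0) = vec X := by simp [dv, vec_z0]

/-- a linear combination -/
def lc : List ℤ → List (ℕ × ℕ) → ℕ → ℤ
  | c :: cs, p :: ps, i => c * (ent p.1 i - ent p.2 i) + lc cs ps i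
  | _, _, _ => 0

/-- test of a linear relation -/
noncomputable def spanOK (N : ℤ) (T : ℕ × ℕ) (ps : List (ℕ × ℕ)) (cs : List ℤ) : Bool :=
  allN 24 fun i => beqZ (N * (ent T.1 i - ent T.2 i)) (lc cs ps i)

theorem lc_mem (B : AddSubgroup Vec) : ∀ (cs : List ℤ) (ps : List (ℕ × ℕ)), (∀ p ∈ ps, dv p ∈ B) →
    (fun q => lc cs ps (idx q)) ∈ B
  | c :: cs, p :: ps, h => B.add_mem (B.zsmul_mem (h p (by simp)) c) (lc_mem B cs ps fun r hr => h r (by simp [hr]))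
  | [], _, _ => by simp only [lc]; exact B.zero_mem
  | _ :: _, [], _ => by simp only [lc]; exact B.zero_mem

theorem span_mem {B : AddSubgroup Vec} {N : ℤ} {T : ℕ × ℕ} {ps : List (ℕ × ℕ)} {cs : List ℤ}
    (k : spanOK N T ps cs = true) (h : ∀ p ∈ ps, dv p ∈ B) : N • dv T ∈ B := by
  convert lc_mem B cs ps h using 1
  funext q
  exact beqZ_iff.1 (allN_iff.1 k _ (idx_lt q))

/-- the fixed vectors -/
def FX (c : Co0) : AddSubgroup Vec where
  carrier := {v | ∃ w : leechLattice, (w : Vec) = v ∧ c • w = w}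
  zero_mem' := ⟨0, rfl, co0_smul_zero c⟩
  add_mem' := by
    rintro _ _ ⟨v, rfl, h⟩ ⟨w, rfl, k⟩
    exact ⟨v + w, rfl, by rw [co0_smul_add, h, k]⟩
  neg_mem' := by
    rintro _ ⟨v, rfl, h⟩
    exact ⟨-v, rfl, by rw [co0_smul_neg, h]⟩

theorem FX_sat {c : Co0} (w : leechLattice) (h : (3 : ℤ) • (w : Vec) ∈ FX c) : c • w = w := by
  obtain ⟨v, e, k⟩ := h
  obtain rfl : v = (3 : ℤ) • w := Subtype.ext e
  rw [co0_smul_zsmul] at k
  exact Subtype.ext (smul_right_injective Vec (by norm_num : (3 : ℤ) ≠ 0) (congrArg Subtype.val k))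

/-- the orthogonal vectors -/
def OR (y : Vec) : AddSubgroup Vec where
  carrier := {v | dotInt y v = 0}
  zero_mem' := by simp [dotInt]
  add_mem' := fun {a b} (h : _ = _) (k : _ = _) => by show _ = _; rw [dot_add_right, h, k, add_zero]
  neg_mem' := fun {a} (h : _ = _) => by show _ = _; rw [dot_neg_right, h, neg_zero]

/-- three generators -/
def mg : Fin 3 → ℕ := ![mj0, mxa, mxz]

/-- test of an orbit enumeration -/
noncomputable def chainOK : List ℕ → List (Fin 3 × ℕ × ℕ) → Bool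
  | _, [] => true
  | K, p :: L => anyL K (Nat.beq p.2.1) && isImg (mg p.1) 8 p.2.1 p.2.2 && chainOK (p.2.2 :: K) L

theorem chain_mem {c : Co0} {g : Fin 3 → Co0} (hg : ∀ i, IsMat (g i) (mg i) 8) (hc : ∀ i, c * g i = g i * c) :
    ∀ (L : List (Fin 3 × ℕ × ℕ)) (K : List ℕ), (∀ X ∈ K, vec X ∈ FX c) → chainOK K L = true →
      ∀ p ∈ L, vec p.2.2 ∈ FX c
  | [], _, _, _ => by simp
  | p :: L, K, h, k => by
    simp only [chainOK, Bool.and_eq_true, anyL_iff, beq_iff] at k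
    obtain ⟨⟨⟨X, hX, e⟩, k2⟩, k3⟩ := k
    obtain ⟨w, e1, e2⟩ := h X hX
    have : vec p.2.2 ∈ FX c :=
      ⟨g p.1 • w, (hg _).smul_vec k2 (e ▸ e1), by rw [← mul_smul, hc, mul_smul, e2]⟩
    intro r hr
    rcases List.mem_cons.1 hr with rfl | hr
    · exact this
    · exact chain_mem hg hc L _ (fun Y hY => (List.mem_cons.1 hY).elim (fun e => e ▸ this) (h Y)) k3 r hr

/-- a spanning set of the moved part -/
def WL : List (ℕ × ℕ) := (vA :: ch.map (·.2.2)).map (·, z0)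

theorem okC : chainOK [vA] ch = true ∧
    allL gl (fun p => memP p.1.1 && isImg mj0 8 p.1.1 p.1.2.1 && isImg mj0 8 p.1.2.1 p.1.2.2 &&
      decide (sqNorm (vec p.1.1 + vec p.1.2.1 + vec p.1.2.2) = 48) && spanOK 3 (p.1.1, p.1.2.1) WL p.2) = true ∧
    allN 24 (fun i => anyL cC (spanOK 3 (pE i, z0) (WL ++ gl.map fun p => (p.1.1, z0)))) = true := by
  decide +kernel

theorem fixa {c : Co0} {g : Fin 3 → Co0} (hg : ∀ i, IsMat (g i) (mg i) 8) (hc : ∀ i, c * g i = g i * c)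
    (h : vec vA ∈ FX c) : c = 1 := by
  obtain ⟨k1, k2, k3⟩ := okC
  have hW : ∀ p ∈ WL, dv p ∈ FX c := fun p hp => by
    obtain ⟨X, hX, rfl⟩ := List.mem_map.1 hp
    rw [dv_z0]
    rcases List.mem_cons.1 hX with rfl | hX
    · exact h
    · obtain ⟨r, hr, rfl⟩ := List.mem_map.1 hX
      exact chain_mem hg hc ch _ (by simpa using h) k1 r hr
  have hG : ∀ p ∈ gl, vec p.1.1 ∈ FX c := fun p hp => by
    have := allL_iff.1 k2 p hp
    simp only [Bool.and_eq_true, decide_eq_true_eq] at this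
    obtain ⟨⟨⟨⟨a1, a2⟩, a3⟩, a4⟩, a5⟩ := this
    let l : leechLattice := ⟨_, vec_mem a1⟩
    have b1 : ((g 0 • l : leechLattice) : Vec) = vec p.1.2.1 := (hg 0).smul_vec a2 rfl
    have b2 : ((g 0 • g 0 • l : leechLattice) : Vec) = vec p.1.2.2 := (hg 0).smul_vec a3 b1
    have cz : ∀ v : leechLattice, c • g 0 • v = g 0 • c • v := fun v => by rw [← mul_smul, hc, mul_smul]
    have b3 : c • (l - g 0 • l) = l - g 0 • l :=
      FX_sat _ (by rw [AddSubgroup.coe_sub, b1]; exact span_mem a5 hW)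
    have b4 : g 0 • (c • l - l) = c • l - l := by
      rw [co0_smul_sub, cz] at b3
      rw [co0_smul_sub, sub_eq_sub_iff_sub_eq_sub, ← neg_inj, neg_sub, neg_sub, b3]
    have b5 : (3 : ℤ) • (c • l - l) = c • (l + g 0 • l + g 0 • g 0 • l) - (l + g 0 • l + g 0 • g 0 • l) := by
      have : (3 : ℤ) • (c • l - l) = (c • l - l) + g 0 • (c • l - l) + g 0 • g 0 • (c • l - l) := by
        rw [b4, b4]; abel
      rw [this]
      simp only [co0_smul_add, co0_smul_sub, cz]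
      abel
    have b6 : sqNorm ((l + g 0 • l + g 0 • g 0 • l : leechLattice) : Vec) = 48 := by
      rw [AddSubgroup.coe_add, AddSubgroup.coe_add, b1, b2]; exact a4
    generalize l + g 0 • l + g 0 • g 0 • l = m at b5 b6
    have b7 := congrArg (fun v : leechLattice => sqNorm (v : Vec)) b5
    simp only [AddSubgroup.coe_zsmul, sqNorm_smul] at b7
    rw [AddSubgroup.coe_sub (x := c • m), sqNorm_sub, co0_norm, b6] at b7
    have b8 := sqNorm_nonneg (((c • m : leechLattice) : Vec) + m)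
    rw [sqNorm_add, co0_norm, b6] at b8
    refine ⟨l, rfl, sub_eq_zero.1 (Subtype.ext ?_)⟩
    by_contra e
    have := min_norm (c • l - l).2 e
    omega
  refine co0_ext_e8 fun i => ?_
  obtain ⟨cs, -, k⟩ := anyL_iff.1 (allN_iff.1 k3 _ (idx_lt i))
  rw [one_smul]
  refine FX_sat _ ?_
  rw [vec_pE, ← dv_z0]
  refine span_mem k fun p hp => (List.mem_append.1 hp).elim (hW p) fun hp => ?_
  obtain ⟨r, hr, rfl⟩ := List.mem_map.1 hp
  rw [dv_z0]; exact hG r hr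

theorem okA : allL pA (fun p => memP p.1 && isImg mj1 8 p.1 p.2) = true ∧
    allL pB (fun p => memP p.1 && isImg mj2 8 p.1 p.2) = true ∧
    allL pF (fun p => memP p.1 && isImg mj0 8 p.1 p.1 && Nat.beq p.2 z0) = true ∧
    allN 24 (fun i => anyL cA (spanOK 9 (pE i, z0) (pA ++ pB ++ pF ++ [(vL, z0), (vM, z0)]))) = true ∧
    memP vA = true ∧ memP vL = true ∧ memP vM = true ∧ isImg mj0 8 vA vB = true ∧ isImg mj0 8 vB vC = true ∧
    isImg mj1 8 vA vA = true ∧ isImg mj2 8 vA vA = true ∧ isImg mj1 8 vB vB = true ∧ isImg mj2 8 vB vB = true ∧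
    isImg mj0 8 vC vA = true ∧ vec vA + vec vB + vec vC = 0 ∧ dotP vA vL = 8 ∧ dotP vB vL = 0 ∧ dotP vA vM = 0 ∧
    dotP vB vM = 8 ∧ dotP vA vA = 48 ∧ dotP vB vB = 48 ∧ dotP vA vB = -24 := by
  decide +kernel

theorem good {z s t : Co0} (hz : IsMat z mj0 8) (hs : IsMat s mj1 8) (ht : IsMat t mj2 8) {y : leechLattice}
    (h1 : s • y = y) (h2 : t • y = y) (h3 : y + z • y + z • z • y = 0) (h4 : dotInt (y : Vec) (vec vL) = 0)
    (h5 : dotInt (y : Vec) (vec vM) = 0) : y = 0 := by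
  obtain ⟨k1, k2, k3, k4, -⟩ := okA
  have pr : ∀ {g : Co0} {A : ℕ} {p : ℕ × ℕ}, IsMat g A 8 → g • y = y → (memP p.1 && isImg A 8 p.1 p.2) = true →
      dv p ∈ OR y := fun {g A p} a b k => by
    rw [Bool.and_eq_true] at k
    have := co0_dot g y ⟨_, vec_mem k.1⟩
    rw [b, a.smul_vec k.2 rfl] at this
    show dotInt _ (_ - _) = 0
    rw [dot_sub_right, this, sub_self]
  refine Subtype.ext (funext fun i => ?_)
  obtain ⟨cs, -, k⟩ := anyL_iff.1 (allN_iff.1 k4 _ (idx_lt i))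
  have : dotInt (y : Vec) ((9 : ℤ) • dv (pE (idx i), z0)) = 0 := span_mem (B := OR y) k fun p hp => by
    simp only [List.mem_append, List.mem_cons, List.not_mem_nil, or_false] at hp
    rcases hp with ((hp | hp) | hp) | rfl | rfl
    · exact pr hs h1 (allL_iff.1 k1 p hp)
    · exact pr ht h2 (allL_iff.1 k2 p hp)
    · have := allL_iff.1 k3 p hp
      simp only [Bool.and_eq_true, beq_iff] at this
      let l : leechLattice := ⟨_, vec_mem this.1.1⟩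
      have e : z • l = l := Subtype.ext (hz.smul_vec this.1.2 rfl)
      have e1 := co0_dot z y l
      have e2 := co0_dot z (z • y) l
      have e3 := congrArg (fun v : leechLattice => dotInt (v : Vec) l) h3
      simp only [AddSubgroup.coe_add, dot_add_left, AddSubgroup.coe_zero] at e3
      rw [e] at e1 e2
      have e4 : dotInt (0 : Vec) (l : Vec) = 0 := by simp [dotInt]
      show dotInt _ (_ - vec p.2) = 0
      rw [this.2, vec_z0, sub_zero]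
      change dotInt (y : Vec) (l : Vec) = 0
      omega
    · rw [dv_z0]; exact h4
    · rw [dv_z0]; exact h5
  rw [dv_z0, ← vec_pE, dot_smul_right, e8_val, dot_single_right] at this
  show (y : Vec) i = 0
  omega

theorem eis {r q : ℤ} (n : 48 * (r * r - r * q + q * q) = 48) : -1 ≤ r ∧ r ≤ 1 ∧ -1 ≤ q ∧ q ≤ 1 := by
  refine ⟨?_, ?_, ?_, ?_⟩ <;> nlinarith [sq_nonneg (2 * r - q), sq_nonneg (2 * q - r)]

theorem cen {c s t : Co0} {g : Fin 3 → Co0} (hg : ∀ i, IsMat (g i) (mg i) 8) (hs : IsMat s mj1 8)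
    (ht : IsMat t mj2 8) (hz : ∀ i, g 0 * g i = g i * g 0) (hc : ∀ i, c * g i = g i * c) (cs : c * s = s * c)
    (ct : c * t = t * c) : ∃ k : ℕ, c = g 0 ^ k ∨ c = negC * g 0 ^ k := by
  obtain ⟨-, -, -, -, m1, m2, m3, i1, i2, i3, i4, i5, i6, i7, s0, d1, d2, d3, d4, d5, d6, d7⟩ := okA
  rw [dotP_eq] at d1 d2 d3 d4 d5 d6 d7
  obtain ⟨a, va⟩ : ∃ a : leechLattice, (a : Vec) = vec vA := ⟨⟨_, vec_mem m1⟩, rfl⟩
  have vb : ((g 0 • a : leechLattice) : Vec) = vec vB := (hg 0).smul_vec i1 va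
  have vc : ((g 0 • g 0 • a : leechLattice) : Vec) = vec vC := (hg 0).smul_vec i2 vb
  have vd : g 0 • g 0 • g 0 • a = a := Subtype.ext (((hg 0).smul_vec i7 vc).trans va.symm)
  have a1 : s • a = a := Subtype.ext ((hs.smul_vec i3 va).trans va.symm)
  have a2 : t • a = a := Subtype.ext ((ht.smul_vec i4 va).trans va.symm)
  have a3 : s • g 0 • a = g 0 • a := Subtype.ext ((hs.smul_vec i5 vb).trans vb.symm)
  have a4 : t • g 0 • a = g 0 • a := Subtype.ext ((ht.smul_vec i6 vb).trans vb.symm)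
  have a5 : a + g 0 • a + g 0 • g 0 • a = 0 := Subtype.ext (by
    rw [AddSubgroup.coe_add, AddSubgroup.coe_add, va, vb, vc]; exact s0)
  have cm : ∀ {x : Co0}, c * x = x * c → ∀ v : leechLattice, x • c • v = c • x • v := fun e v => by
    rw [← mul_smul, ← e, mul_smul]
  obtain ⟨r, hr⟩ := eight_dvd_dot (c • a).2 (vec_mem m2)
  obtain ⟨q, hq⟩ := eight_dvd_dot (c • a).2 (vec_mem m3)
  have e : c • a - (r • a + q • g 0 • a) = 0 := by
    refine good (hg 0) hs ht ?_ ?_ ?_ ?_ ?_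
    · simp only [co0_smul_sub, co0_smul_add, co0_smul_zsmul, cm cs, a1, a3]
    · simp only [co0_smul_sub, co0_smul_add, co0_smul_zsmul, cm ct, a2, a4]
    · have b1 := congrArg (fun v => c • v) a5
      simp only [co0_smul_sub, co0_smul_add, co0_smul_zsmul, cm (hc 0), vd, co0_smul_zero] at b1 ⊢
      generalize c • g 0 • g 0 • a = x3 at b1 ⊢
      generalize g 0 • g 0 • a = y3 at a5 ⊢
      generalize c • g 0 • a = x2 at b1 ⊢
      generalize g 0 • a = y2 at a5 ⊢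
      generalize c • a = x1 at b1 ⊢
      linear_combination (norm := module) b1 - r • a5 - q • a5
    · simp only [AddSubgroup.coe_sub, AddSubgroup.coe_add, AddSubgroup.coe_zsmul, dot_sub_left, dot_add_left,
        dot_smul_left, hr, va, vb, d1, d2]
      ring
    · simp only [AddSubgroup.coe_sub, AddSubgroup.coe_add, AddSubgroup.coe_zsmul, dot_sub_left, dot_add_left,
        dot_smul_left, hq, va, vb, d3, d4]
      ring
  rw [sub_eq_zero] at e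
  have n := co0_norm c a
  rw [e, ← dot_self, ← dot_self] at n
  simp only [AddSubgroup.coe_add, AddSubgroup.coe_zsmul, dot_add_left, dot_add_right, dot_smul_left,
    dot_smul_right, va, vb, d5, d6, d7, dot_comm (vec vB) (vec vA)] at n
  have key : ∀ x : Co0, (∀ i, x * g i = g i * x) → c • a = x • a → c = x := fun x h1 h2 => by
    have := fixa (c := x⁻¹ * c) hg (fun i => by
      rw [mul_assoc, hc, ← mul_assoc, ← mul_assoc, ((show Commute x (g i) from h1 i).inv_left).eq])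
      ⟨a, va, by rw [mul_smul, h2, inv_smul_smul]⟩
    exact (inv_mul_eq_one.1 this).symm
  have p1 : ∀ (k : ℕ) i, g 0 ^ k * g i = g i * g 0 ^ k := fun k i =>
    ((show Commute (g 0) (g i) from hz i).pow_left k).eq
  have p2 : ∀ (k : ℕ) i, negC * g 0 ^ k * g i = g i * (negC * g 0 ^ k) := fun k i => by
    have : negC * g i = g i * negC := co0_ext fun v => by simp only [mul_smul, negC_smul, co0_smul_neg]
    rw [mul_assoc, p1, ← mul_assoc, ← mul_assoc, this]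
  have a6 : g 0 • g 0 • a = -(a + g 0 • a) := eq_neg_of_add_eq_zero_right a5
  obtain ⟨l1, l2, l3, l4⟩ := eis (r := r) (q := q) (by linear_combination n)
  interval_cases r <;> interval_cases q <;> first | omega | skip
  · exact ⟨2, .inl (key _ (p1 2) (by rw [e, pow_two, mul_smul, a6]; simp [add_comm]))⟩
  · exact ⟨0, .inr (key _ (p2 0) (by rw [e, pow_zero, mul_one, negC_smul]; simp))⟩
  · exact ⟨1, .inr (key _ (p2 1) (by rw [e, pow_one, mul_smul, negC_smul]; simp))⟩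
  · exact ⟨1, .inl (key _ (p1 1) (by rw [e, pow_one]; simp))⟩
  · exact ⟨0, .inl (key _ (p1 0) (by rw [e, pow_zero, one_smul]; simp))⟩
  · exact ⟨2, .inr (key _ (p2 2) (by rw [e, pow_two, mul_smul, mul_smul, negC_smul, a6]; simp))⟩

end Cfsg.Agent.U4T.CoC
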